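import Mathlib
import Cfsg.Agent.Lib.Helper6.A7.Defs
import Cfsg.Agent.Lib.Helper91.SSFive

/-!
# S0984, package (D3): a real irreducible character of degree six (helper64)

The principal `5`-block of a simple group of order `2520` with `[N(P₅):C(P₅)] = 4` has four
nonlinear characters of degrees in `{4, 6, 9, 14, 21, 24, 36}` with `1 + Σ aᵢ fᵢ = 0`; without
degree `4` and without a real character of degree `9` the degrees are `6, 14, 14, 21`, and the
character of degree six is real.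
-/

set_option autoImplicit false

namespace Cfsg.Agent.Lib.Helper64.A7

open Cfsg Cfsg.Agent.Lib.Helper17 Cfsg.Agent.Lib.Helper91.SS

universe u

/-- the candidate degrees -/
theorem degs_2520 (f : ℕ) (h1 : f ∣ 2520) (h2 : f ≠ 1) (h3 : f ^ 2 ≤ 2520)
    (h4 : f % 5 = 1 ∨ f % 5 = 4) : f ∈ [4, 6, 9, 14, 21, 24, 36] := by
  have h5 : f ≤ 50 := by nlinarith
  have key : ∀ g ∈ List.range 51, g ∣ 2520 → g ≠ 1 → (g % 5 = 1 ∨ g % 5 = 4) →
      g ∈ [4, 6, 9, 14, 21, 24, 36] := by decide +kernel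
  exact key f (List.mem_range.mpr (by omega)) h1 h2 h4

/-- Every solution of the degree equation contains the degree `4`, or the degree `9` exactly
once, or the degree `6` exactly once. -/
theorem arith_2520 (f : Fin 4 → ℕ) (a : Fin 4 → ℤ)
    (hf : ∀ i, f i ∈ [4, 6, 9, 14, 21, 24, 36]) (ha : ∀ i, a i = 1 ∨ a i = -1)
    (hmod : ∀ i, (f i : ℤ) % 5 = a i % 5) (hrel : 1 + ∑ i, a i * (f i : ℤ) = 0) :
    ∃ i, f i = 4 ∨ (f i = 9 ∧ ∀ j, j ≠ i → f j ≠ 9) ∨ (f i = 6 ∧ ∀ j, j ≠ i → f j ≠ 6) := by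
  have key : ∀ f₀ ∈ ([4, 6, 9, 14, 21, 24, 36] : List ℕ),
      ∀ f₁ ∈ ([4, 6, 9, 14, 21, 24, 36] : List ℕ),
      ∀ f₂ ∈ ([4, 6, 9, 14, 21, 24, 36] : List ℕ),
      ∀ f₃ ∈ ([4, 6, 9, 14, 21, 24, 36] : List ℕ),
      1 + (sgnFive f₀ * (f₀ : ℤ) + sgnFive f₁ * (f₁ : ℤ) + sgnFive f₂ * (f₂ : ℤ) +
        sgnFive f₃ * (f₃ : ℤ)) = 0 →
      ∃ i : Fin 4, (![f₀, f₁, f₂, f₃] i = 4 ∨
        (![f₀, f₁, f₂, f₃] i = 9 ∧ ∀ j : Fin 4, j ≠ i → ![f₀, f₁, f₂, f₃] j ≠ 9) ∨
        (![f₀, f₁, f₂, f₃] i = 6 ∧ ∀ j : Fin 4, j ≠ i → ![f₀, f₁, f₂, f₃] j ≠ 6)) := by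
    unfold sgnFive
    decide +kernel
  have hsg : ∀ i, a i = sgnFive (f i) := by
    intro i
    have h1 := hf i
    have h2 := hmod i
    unfold sgnFive
    simp only [List.mem_cons, List.not_mem_nil, or_false] at h1
    rcases ha i with h | h <;> rw [h] at h2 ⊢ <;> split_ifs with h3 <;> omega
  simp only [Fin.sum_univ_four] at hrel
  rw [hsg 0, hsg 1, hsg 2, hsg 3] at hrel
  have hfe : ![f 0, f 1, f 2, f 3] = f := by
    ext i
    fin_cases i <;> rfl
  have := key (f 0) (hf 0) (f 1) (hf 1) (f 2) (hf 2) (f 3) (hf 3) hrel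
  rw [hfe] at this
  exact this

theorem lemChar6 : Cfsg.Agent.Lib.Helper6.A7.LemChar6.{u} := by
  intro G _ _ _ hD hN4 hN9
  classical
  have : Fact (Nat.Prime 5) := ⟨by norm_num⟩
  have hG := hD.card
  have hnp : ¬ (Nat.card G).Prime := by rw [hG]; norm_num
  obtain ⟨P⟩ := (Sylow.nonempty : Nonempty (Sylow 5 G))
  have hP : Nat.card (P : Subgroup G) = 5 := by
    simpa using card_sylow_eq_of_card_eq 5 1 504 (by rw [hG]; norm_num) (by norm_num) P
  have hm : (Subgroup.centralizer ((P : Subgroup G) : Set G)).relIndex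
      (Subgroup.normalizer ((P : Subgroup G) : Set G)) = 4 := by
    obtain ⟨-, -, h3, -⟩ := relIndex_centralizer_sylow_prime hnp 5 P hP
    have h5 : Nat.card (Subgroup.centralizer ((P : Subgroup G) : Set G)) = 5 := by
      rw [hD.c5 P]; exact hP
    rw [h5, hD.n5 P] at h3
    omega
  obtain ⟨χ, a, hinj, hχ, hrel, hreal⟩ := block_m4_five hnp P hP hm
  have hdegs : ∀ i, ((χ i : G → ℂ) 1 = (Cfsg.charDegree (χ i : G → ℂ) : ℂ)) ∧
      Cfsg.charDegree (χ i : G → ℂ) ∈ [4, 6, 9, 14, 21, 24, 36] ∧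
      ((Cfsg.charDegree (χ i : G → ℂ) : ℕ) : ℤ) % 5 = a i % 5 := by
    intro i
    obtain ⟨ha, hx1, hxa⟩ := hχ i
    have hirr := (χ i).2
    obtain ⟨hxd, hxpos, hxdvd⟩ := Cfsg.Agent.Lib.Helper79.irr_charDegree hirr
    have hmod := Cfsg.Agent.Lib.Helper90.BrauerDeg.degree_modEq hirr 5 (P : Subgroup G) hP (a i)
        (fun y hy hy1 => hxa y y (isPPart_self (by norm_num) _ hP y hy hy1) hy hy1)
    have hmod' : ((Cfsg.charDegree (χ i : G → ℂ) : ℕ) : ℤ) % 5 = a i % 5 := by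
      have := hmod
      unfold Int.ModEq at this
      exact_mod_cast this
    refine ⟨hxd, ?_, hmod'⟩
    apply degs_2520 _ (hG ▸ hxdvd)
    · intro h
      apply hx1
      rw [hxd, h]
      norm_num
    · have := Cfsg.Agent.Lib.Helper80.charDegree_sq_le_card hirr
      rwa [hG] at this
    · rcases ha with h | h <;> rw [h] at hmod' <;> omega
  have hrel1 := hrel 1 (by rw [orderOf_one]; norm_num)
  have hrel1' : 1 + ∑ i, a i * ((Cfsg.charDegree (χ i : G → ℂ) : ℕ) : ℤ) = 0 := by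
    have h : ((1 + ∑ i, a i * ((Cfsg.charDegree (χ i : G → ℂ) : ℕ) : ℤ) : ℤ) : ℂ) = 0 := by
      push_cast
      rw [← hrel1]
      congr 1
      exact Finset.sum_congr rfl (fun i _ => by rw [(hdegs i).1])
    exact_mod_cast h
  obtain ⟨i, hi⟩ := arith_2520 (fun i => Cfsg.charDegree (χ i : G → ℂ)) a
    (fun i => (hdegs i).2.1) (fun i => (hχ i).1) (fun i => (hdegs i).2.2) hrel1'
  -- uniqueness of a degree gives reality
  have hrl : ∀ d : ℕ, Cfsg.charDegree (χ i : G → ℂ) = d →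
      (∀ j, j ≠ i → Cfsg.charDegree (χ j : G → ℂ) ≠ d) →
      ∀ g, (χ i : G → ℂ) g⁻¹ = (χ i : G → ℂ) g := by
    intro d hd hu
    apply hreal i
    intro i' hi'
    rw [(hdegs i').1, (hdegs i).1]
    intro heq
    have h1 : Cfsg.charDegree (χ i' : G → ℂ) = Cfsg.charDegree (χ i : G → ℂ) := by
      exact_mod_cast heq
    exact hu i' hi' (by rw [h1]; exact hd)
  rcases hi with h4 | ⟨h9, h9u⟩ | ⟨h6, h6u⟩
  · exfalso
    have hai : a i = -1 := by
      have h2 := (hdegs i).2.2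
      rw [h4] at h2
      rcases (hχ i).1 with h | h
      · rw [h] at h2
        norm_num at h2
      · exact h
    apply hN4 P (χ i) (by rw [(hdegs i).1, h4]; norm_num)
    intro y hy hy1
    rw [(hχ i).2.2 y y (isPPart_self (by norm_num) _ hP y hy hy1) hy hy1, hai]
    norm_num
  · exfalso
    exact hN9 (χ i) (by rw [(hdegs i).1, h9]; norm_num) (hrl 9 h9 h9u)
  · exact ⟨χ i, by rw [(hdegs i).1, h6]; norm_num, hrl 6 h6 h6u⟩

end Cfsg.Agent.Lib.Helper64.A7
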