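import Mathlib
import Cfsg.Agent.Lib.Helper6.A7.Defs
import Cfsg.Agent.Lib.Helper17.PrimeSylow

/-!
# S0984, package (B): the Sylow `5`-data of a simple group of order `2520` (helper64)

`C(P) = P` and `|N(P)| = 20` for every Sylow `5`-subgroup `P`, given that the Sylow
`7`-subgroups are self-centralizing and that `C(P)` has no involution when `[N(P):C(P)]` is `2`
or `4`.
-/

set_option autoImplicit false

namespace Cfsg.Agent.Lib.Helper64.A7

open Cfsg.Agent.Lib.Helper17

universe u

/-- an element of order `5` cannot commute with an element of order `7` when the Sylow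
`7`-subgroups (of order `7`) are self-centralizing -/
theorem no_five_seven {G : Type u} [Group G] [Finite G] (hG : Nat.card G = 2520)
    (hc7 : ∀ P : Sylow 7 G, Subgroup.centralizer ((P : Subgroup G) : Set G) = (P : Subgroup G))
    (y z : G) (hy : orderOf y = 5) (hz : orderOf z = 7) (hyz : y * z = z * y) : False := by
  have : Fact (Nat.Prime 7) := ⟨by norm_num⟩
  have hzp : IsPGroup 7 (Subgroup.zpowers z) := by
    apply IsPGroup.of_card (n := 1)
    rw [Nat.card_zpowers, hz, pow_one]
  obtain ⟨Q, hQ⟩ := hzp.exists_le_sylow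
  have hQc : Nat.card (Q : Subgroup G) = 7 := by
    simpa using card_sylow_eq_of_card_eq 7 1 360 (by rw [hG]; norm_num) (by norm_num) Q
  have hQe : Subgroup.zpowers z = (Q : Subgroup G) := by
    apply Subgroup.eq_of_le_of_card_ge hQ
    rw [Nat.card_zpowers, hz, hQc]
  have hyC : y ∈ Subgroup.centralizer ((Q : Subgroup G) : Set G) := by
    rw [Subgroup.mem_centralizer_iff]
    intro q hq
    have hq' : q ∈ Subgroup.zpowers z := by rw [hQe]; exact hq
    obtain ⟨k, rfl⟩ := Subgroup.mem_zpowers_iff.mp hq'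
    have hc : Commute z y := hyz.symm
    exact (hc.zpow_left k).eq
  rw [hc7 Q] at hyC
  have hd := Subgroup.orderOf_dvd_natCard (Q : Subgroup G) hyC
  rw [hy, hQc] at hd
  norm_num at hd

theorem lemSylow5 : Cfsg.Agent.Lib.Helper6.A7.LemSylow5.{u} := by
  intro G _ _ _ hG hc7 h2 h4 P
  classical
  have : Fact (Nat.Prime 5) := ⟨by norm_num⟩
  have hnp : ¬ (Nat.card G).Prime := by rw [hG]; norm_num
  have hcard5 : Nat.card G = 5 ^ 1 * 504 := by rw [hG]; norm_num
  have hP : Nat.card (P : Subgroup G) = 5 := by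
    simpa using card_sylow_eq_of_card_eq 5 1 504 hcard5 (by norm_num) P
  obtain ⟨he1, hed, heC, hPC⟩ := relIndex_centralizer_sylow_prime hnp 5 P hP
  have hmul := card_sylow_mul_card_normalizer 5 P
  have hcand := card_sylow_mem_cands (G := G) 5 1 504 hcard5 (by norm_num)
  have hne1 : Nat.card (Sylow 5 G) ≠ 1 :=
    card_sylow_ne_one 5 (by rw [hG]; norm_num) 7 (by norm_num) (by norm_num)
      (by rw [hG]; norm_num)
  have hfac := two_mul_card_dvd_factorial_card_sylow hnp 5 hne1
  obtain ⟨c, hc⟩ : 5 ∣ Nat.card (Subgroup.centralizer ((P : Subgroup G) : Set G)) := by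
    have := Subgroup.card_dvd_of_le hPC
    rwa [hP] at this
  -- abbreviations
  obtain ⟨n, hn⟩ : ∃ n, n = Nat.card (Sylow 5 G) := ⟨_, rfl⟩
  obtain ⟨e, he⟩ : ∃ e, e = (Subgroup.centralizer ((P : Subgroup G) : Set G)).relIndex
      (Subgroup.normalizer ((P : Subgroup G) : Set G)) := ⟨_, rfl⟩
  obtain ⟨N, hN⟩ : ∃ N, N = Nat.card (Subgroup.normalizer ((P : Subgroup G) : Set G)) :=
    ⟨_, rfl⟩
  rw [← he] at he1 hed heC
  rw [← hN] at heC hmul
  rw [← hn] at hmul hcand hfac
  rw [hG] at hmul hfac
  rw [hc] at heC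
  have hl : sylowCands 5 504 = [1, 6, 21, 36, 56, 126] := by decide +kernel
  rw [hl] at hcand
  have he24 : e = 2 ∨ e = 4 := by
    have h1 : e ≤ 4 := Nat.le_of_dvd (by norm_num) hed
    have h0 : e ≠ 0 := by
      rintro rfl
      simp at hed
    interval_cases e
    · exact absurd rfl h0
    · exact absurd rfl he1
    · exact Or.inl rfl
    · norm_num at hed
    · exact Or.inr rfl
  -- an involution in `C(P)` is impossible
  have hodd : ¬ 2 ∣ Nat.card (Subgroup.centralizer ((P : Subgroup G) : Set G)) := by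
    intro hdvd
    have : Fact (Nat.Prime 2) := ⟨by norm_num⟩
    obtain ⟨y, hy⟩ := exists_prime_orderOf_dvd_card'
      (G := ↥(Subgroup.centralizer ((P : Subgroup G) : Set G))) 2 hdvd
    have hy2 : orderOf (y : G) = 2 := by rw [Subgroup.orderOf_coe, hy]
    rcases he24 with h | h
    · exact h2 P (by rw [← he, h]) (y : G) y.2 hy2
    · exact h4 P (by rw [← he, h]) (y : G) y.2 hy2
  -- no element of order seven in `C(P)`
  have hno7 : ¬ 7 ∣ Nat.card (Subgroup.centralizer ((P : Subgroup G) : Set G)) := by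
    intro hdvd
    have : Fact (Nat.Prime 7) := ⟨by norm_num⟩
    obtain ⟨z, hz⟩ := exists_prime_orderOf_dvd_card'
      (G := ↥(Subgroup.centralizer ((P : Subgroup G) : Set G))) 7 hdvd
    have hz7 : orderOf (z : G) = 7 := by rw [Subgroup.orderOf_coe, hz]
    obtain ⟨y, hy⟩ := exists_prime_orderOf_dvd_card' (G := ↥(P : Subgroup G)) 5
      (by rw [hP])
    have hy5 : orderOf (y : G) = 5 := by rw [Subgroup.orderOf_coe, hy]
    have hzc := z.2
    rw [Subgroup.mem_centralizer_iff] at hzc
    exact no_five_seven hG hc7 (y : G) (z : G) hy5 hz7 (hzc (y : G) y.2)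
  rw [hc] at hodd hno7
  simp only [List.mem_cons, List.not_mem_nil, or_false] at hcand
  have hfin : c = 1 ∧ N = 20 := by
    rcases hcand with h | h | h | h | h | h
    · exact absurd (hn.symm.trans h) hne1
    · exfalso
      rw [h] at hfac
      revert hfac
      decide
    · exfalso
      rw [h] at hmul
      rcases he24 with h' | h' <;> rw [h'] at heC <;> omega
    · exfalso
      rw [h] at hmul
      rcases he24 with h' | h' <;> rw [h'] at heC <;> omega
    · exfalso
      rw [h] at hmul
      rcases he24 with h' | h' <;> rw [h'] at heC <;> omega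
    · rw [h] at hmul
      rcases he24 with h' | h' <;> rw [h'] at heC <;> omega
  refine ⟨?_, hN ▸ hfin.2⟩
  symm
  apply Subgroup.eq_of_le_of_card_ge hPC
  rw [hc, hfin.1, hP]

end Cfsg.Agent.Lib.Helper64.A7
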